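/-
helper18 (after helper38's `F4IRec`): involutions of the Chevalley group of type E6 in characteristic two - the
Levi recursion: every involution of the subgroup of the positive roots is conjugate to a standard word.
-/
import Cfsg.Agent.Helper18.E6IStep

set_option autoImplicit false
set_option linter.unusedSectionVars false
set_option linter.unusedVariables false
set_option maxRecDepth 100000

namespace Cfsg.Agent.Helper18.E6I

open Cfsg Cfsg.Lie Cfsg.Agent.Helper36 Cfsg.Agent.Helper17 Cfsg.Agent.Helper18 Cfsg.Agent.Helper38 Cfsg.Agent.Helper18.RSub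

section E6IRec

variable {F : Type*} [Field F] {η : ℕ → ℕ → ℤ}

/-- The positive roots of the subsystem of the fundamental roots `3` (0-based). -/
def e6iP3 : List ℕ := [39]

/-- The standard words of the subsystem `3`. -/
def e6iL3 : List (List ℕ) := [[], [39]]

/-- The positive roots of the subsystem of the fundamental roots `234` (0-based). -/
def e6iP234 : List ℕ := [37, 39, 40, 42, 43, 44]

/-- The standard words of the subsystem `234`. -/
def e6iL234 : List (List ℕ) := [[], [44], [44, 39]]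

/-- The positive roots of the subsystem of the fundamental roots `02345` (0-based). -/
def e6iP02345 : List ℕ := [36, 37, 38, 39, 40, 41, 42, 43, 44, 45, 56, 57, 58, 59, 60]

/-- The standard words of the subsystem `02345`. -/
def e6iL02345 : List (List ℕ) := [[], [60], [60, 44], [60, 44, 39]]

/-- The positive roots of the subsystem of the fundamental roots `012345` (0-based). -/
def e6iP012345 : List ℕ := [36, 37, 38, 39, 40, 41, 42, 43, 44, 45, 46, 47, 48, 49, 50, 51, 52, 53, 54, 55, 56, 57, 58, 59, 60, 61, 62, 63, 64, 65, 66, 67, 68, 69, 70, 71]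

/-- The standard words of the subsystem `012345`. -/
def e6iL012345 : List (List ℕ) := [[], [71], [71, 60], [71, 60, 44], [71, 60, 44, 39]]

theorem e6i_ok_3_3 : E6StepOK e6iP3 3 39 [] [] [] [] [[]] e6iL3 := by
  decide +kernel

theorem e6i_low_3 : LowOK chevE6 e6iP3 [3] := by
  decide +kernel

theorem e6i_claim_3 [Finite F] [CharP F 2] (R : BRel chevE6 F η) (hL : E6LowS R) (hC : E6CocS R) :
    E6Claim R e6iP3 e6iL3 := by
  refine e6i_claim R hL hC e6iP3 [3] e6iL3 e6i_low_3 (by decide) (by decide +kernel) ?_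
  intro j hj
  simp only [List.mem_cons, List.not_mem_nil, or_false] at hj
  rcases hj with rfl
  · exact ⟨39, [], [], [], [], [[]], e6i_ok_3_3, e6i_claim_nil R⟩

theorem e6i_ok_234_2 : E6StepOK e6iP234 2 44 [4, 3] [37] [(39, 43), (40, 44)] e6iP3 e6iL3 e6iL234 := by
  decide +kernel

theorem e6i_ok_234_3 : E6StepOK e6iP234 3 44 [4, 2] [44] [(37, 40), (42, 43)] e6iP3 e6iL3 e6iL234 := by
  decide +kernel

theorem e6i_ok_234_4 : E6StepOK e6iP234 4 44 [2, 3] [42] [(39, 40), (43, 44)] e6iP3 e6iL3 e6iL234 := by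
  decide +kernel

theorem e6i_low_234 : LowOK chevE6 e6iP234 [2, 3, 4] := by
  decide +kernel

theorem e6i_claim_234 [Finite F] [CharP F 2] (R : BRel chevE6 F η) (hL : E6LowS R) (hC : E6CocS R) :
    E6Claim R e6iP234 e6iL234 := by
  refine e6i_claim R hL hC e6iP234 [2, 3, 4] e6iL234 e6i_low_234 (by decide) (by decide +kernel) ?_
  intro j hj
  simp only [List.mem_cons, List.not_mem_nil, or_false] at hj
  rcases hj with rfl | rfl | rfl
  · exact ⟨44, [4, 3], [37], [(39, 43), (40, 44)], e6iP3, e6iL3, e6i_ok_234_2, e6i_claim_3 R hL hC⟩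
  · exact ⟨44, [4, 2], [44], [(37, 40), (42, 43)], e6iP3, e6iL3, e6i_ok_234_3, e6i_claim_3 R hL hC⟩
  · exact ⟨44, [2, 3], [42], [(39, 40), (43, 44)], e6iP3, e6iL3, e6i_ok_234_4, e6i_claim_3 R hL hC⟩

theorem e6i_ok_02345_0 : E6StepOK e6iP02345 0 60 [5, 4, 3, 2] [36, 37, 38, 39, 40, 41] [(42, 57), (43, 58), (44, 59), (45, 60)] e6iP234 e6iL234 e6iL02345 := by
  decide +kernel

theorem e6i_ok_02345_2 : E6StepOK e6iP02345 2 60 [5, 4, 3, 0] [36, 37, 38, 58, 59, 60] [(39, 43), (40, 44), (41, 45), (56, 57)] e6iP234 e6iL234 e6iL02345 := by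
  decide +kernel

theorem e6i_ok_02345_3 : E6StepOK e6iP02345 3 60 [5, 4, 0, 2] [36, 44, 45, 56, 59, 60] [(37, 40), (38, 41), (42, 43), (57, 58)] e6iP234 e6iL234 e6iL02345 := by
  decide +kernel

theorem e6i_ok_02345_4 : E6StepOK e6iP02345 4 60 [5, 0, 2, 3] [41, 42, 45, 56, 57, 60] [(36, 38), (39, 40), (43, 44), (58, 59)] e6iP234 e6iL234 e6iL02345 := by
  decide +kernel

theorem e6i_ok_02345_5 : E6StepOK e6iP02345 5 60 [0, 2, 3, 4] [39, 42, 43, 56, 57, 58] [(37, 38), (40, 41), (44, 45), (59, 60)] e6iP234 e6iL234 e6iL02345 := by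
  decide +kernel

theorem e6i_low_02345 : LowOK chevE6 e6iP02345 [0, 2, 3, 4, 5] := by
  decide +kernel

theorem e6i_claim_02345 [Finite F] [CharP F 2] (R : BRel chevE6 F η) (hL : E6LowS R) (hC : E6CocS R) :
    E6Claim R e6iP02345 e6iL02345 := by
  refine e6i_claim R hL hC e6iP02345 [0, 2, 3, 4, 5] e6iL02345 e6i_low_02345 (by decide) (by decide +kernel) ?_
  intro j hj
  simp only [List.mem_cons, List.not_mem_nil, or_false] at hj
  rcases hj with rfl | rfl | rfl | rfl | rfl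
  · exact ⟨60, [5, 4, 3, 2], [36, 37, 38, 39, 40, 41], [(42, 57), (43, 58), (44, 59), (45, 60)], e6iP234, e6iL234, e6i_ok_02345_0, e6i_claim_234 R hL hC⟩
  · exact ⟨60, [5, 4, 3, 0], [36, 37, 38, 58, 59, 60], [(39, 43), (40, 44), (41, 45), (56, 57)], e6iP234, e6iL234, e6i_ok_02345_2, e6i_claim_234 R hL hC⟩
  · exact ⟨60, [5, 4, 0, 2], [36, 44, 45, 56, 59, 60], [(37, 40), (38, 41), (42, 43), (57, 58)], e6iP234, e6iL234, e6i_ok_02345_3, e6i_claim_234 R hL hC⟩
  · exact ⟨60, [5, 0, 2, 3], [41, 42, 45, 56, 57, 60], [(36, 38), (39, 40), (43, 44), (58, 59)], e6iP234, e6iL234, e6i_ok_02345_4, e6i_claim_234 R hL hC⟩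
  · exact ⟨60, [0, 2, 3, 4], [39, 42, 43, 56, 57, 58], [(37, 38), (40, 41), (44, 45), (59, 60)], e6iP234, e6iL234, e6i_ok_02345_5, e6i_claim_234 R hL hC⟩

theorem e6i_ok_012345_0 : E6StepOK e6iP012345 0 71 [1, 3, 4, 5, 2, 3, 4, 1, 3, 2] [36, 37, 38, 39, 40, 41, 46, 47, 48, 49, 67, 68, 69, 70, 71] [(42, 57), (43, 58), (44, 59), (45, 60), (50, 61), (51, 62), (52, 63), (53, 64), (54, 65), (55, 66)] e6iP02345 e6iL02345 e6iL012345 := by
  decide +kernel

theorem e6i_ok_012345_1 : E6StepOK e6iP012345 1 71 [1, 3, 4, 5, 2, 3, 4, 0, 2, 3] [36, 37, 38, 42, 53, 54, 55, 56, 57, 64, 65, 66, 67, 68, 69] [(39, 47), (40, 48), (41, 49), (43, 50), (44, 51), (45, 52), (58, 61), (59, 62), (60, 63), (70, 71)] e6iP02345 e6iL02345 e6iL012345 := by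
  decide +kernel

theorem e6i_ok_012345_2 : E6StepOK e6iP012345 2 71 [1, 3, 4, 5, 2, 3, 4, 1, 3, 0] [36, 37, 38, 46, 53, 54, 55, 58, 59, 60, 61, 62, 63, 70, 71] [(39, 43), (40, 44), (41, 45), (47, 50), (48, 51), (49, 52), (56, 57), (64, 67), (65, 68), (66, 69)] e6iP02345 e6iL02345 e6iL012345 := by
  decide +kernel

theorem e6i_ok_012345_3 : E6StepOK e6iP012345 3 71 [1, 3, 4, 5, 2, 3, 4, 0, 2, 1] [36, 44, 45, 48, 49, 50, 55, 56, 59, 60, 61, 66, 67, 68, 71] [(37, 40), (38, 41), (42, 43), (46, 47), (51, 53), (52, 54), (57, 58), (62, 64), (63, 65), (69, 70)] e6iP02345 e6iL02345 e6iL012345 := by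
  decide +kernel

theorem e6i_ok_012345_4 : E6StepOK e6iP012345 4 71 [1, 3, 4, 5, 2, 3, 0, 2, 1, 3] [41, 42, 45, 46, 49, 52, 53, 56, 57, 60, 63, 64, 67, 70, 71] [(36, 38), (39, 40), (43, 44), (47, 48), (50, 51), (54, 55), (58, 59), (61, 62), (65, 66), (68, 69)] e6iP02345 e6iL02345 e6iL012345 := by
  decide +kernel

theorem e6i_ok_012345_5 : E6StepOK e6iP012345 5 71 [1, 3, 4, 2, 3, 0, 2, 1, 3, 4] [39, 42, 43, 46, 47, 50, 55, 56, 57, 58, 61, 66, 69, 70, 71] [(37, 38), (40, 41), (44, 45), (48, 49), (51, 52), (53, 54), (59, 60), (62, 63), (64, 65), (67, 68)] e6iP02345 e6iL02345 e6iL012345 := by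
  decide +kernel

theorem e6i_low_012345 : LowOK chevE6 e6iP012345 [0, 1, 2, 3, 4, 5] := by
  decide +kernel

theorem e6i_claim_012345 [Finite F] [CharP F 2] (R : BRel chevE6 F η) (hL : E6LowS R) (hC : E6CocS R) :
    E6Claim R e6iP012345 e6iL012345 := by
  refine e6i_claim R hL hC e6iP012345 [0, 1, 2, 3, 4, 5] e6iL012345 e6i_low_012345 (by decide) (by decide +kernel) ?_
  intro j hj
  simp only [List.mem_cons, List.not_mem_nil, or_false] at hj
  rcases hj with rfl | rfl | rfl | rfl | rfl | rfl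
  · exact ⟨71, [1, 3, 4, 5, 2, 3, 4, 1, 3, 2], [36, 37, 38, 39, 40, 41, 46, 47, 48, 49, 67, 68, 69, 70, 71], [(42, 57), (43, 58), (44, 59), (45, 60), (50, 61), (51, 62), (52, 63), (53, 64), (54, 65), (55, 66)], e6iP02345, e6iL02345, e6i_ok_012345_0, e6i_claim_02345 R hL hC⟩
  · exact ⟨71, [1, 3, 4, 5, 2, 3, 4, 0, 2, 3], [36, 37, 38, 42, 53, 54, 55, 56, 57, 64, 65, 66, 67, 68, 69], [(39, 47), (40, 48), (41, 49), (43, 50), (44, 51), (45, 52), (58, 61), (59, 62), (60, 63), (70, 71)], e6iP02345, e6iL02345, e6i_ok_012345_1, e6i_claim_02345 R hL hC⟩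
  · exact ⟨71, [1, 3, 4, 5, 2, 3, 4, 1, 3, 0], [36, 37, 38, 46, 53, 54, 55, 58, 59, 60, 61, 62, 63, 70, 71], [(39, 43), (40, 44), (41, 45), (47, 50), (48, 51), (49, 52), (56, 57), (64, 67), (65, 68), (66, 69)], e6iP02345, e6iL02345, e6i_ok_012345_2, e6i_claim_02345 R hL hC⟩
  · exact ⟨71, [1, 3, 4, 5, 2, 3, 4, 0, 2, 1], [36, 44, 45, 48, 49, 50, 55, 56, 59, 60, 61, 66, 67, 68, 71], [(37, 40), (38, 41), (42, 43), (46, 47), (51, 53), (52, 54), (57, 58), (62, 64), (63, 65), (69, 70)], e6iP02345, e6iL02345, e6i_ok_012345_3, e6i_claim_02345 R hL hC⟩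
  · exact ⟨71, [1, 3, 4, 5, 2, 3, 0, 2, 1, 3], [41, 42, 45, 46, 49, 52, 53, 56, 57, 60, 63, 64, 67, 70, 71], [(36, 38), (39, 40), (43, 44), (47, 48), (50, 51), (54, 55), (58, 59), (61, 62), (65, 66), (68, 69)], e6iP02345, e6iL02345, e6i_ok_012345_4, e6i_claim_02345 R hL hC⟩
  · exact ⟨71, [1, 3, 4, 2, 3, 0, 2, 1, 3, 4], [39, 42, 43, 46, 47, 50, 55, 56, 57, 58, 61, 66, 69, 70, 71], [(37, 38), (40, 41), (44, 45), (48, 49), (51, 52), (53, 54), (59, 60), (62, 63), (64, 65), (67, 68)], e6iP02345, e6iL02345, e6i_ok_012345_5, e6i_claim_02345 R hL hC⟩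

end E6IRec

end Cfsg.Agent.Helper18.E6I
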