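/-
helper18 (after helper38's `F4IFus`): involutions of the Chevalley group of type E6 in characteristic two - every
nontrivial standard word is conjugate to one of the representatives (conjugating words found by machine over
the field of two elements, checked by the characteristic-two word checker).
-/
import Cfsg.Agent.Helper18.E6IFusDefs
import Cfsg.Agent.Helper18.E6IRec

set_option autoImplicit false
set_option linter.unusedSectionVars false
set_option linter.unusedVariables false
set_option maxRecDepth 100000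

namespace Cfsg.Agent.Helper18.E6I

open Cfsg Cfsg.Lie Cfsg.Agent.Helper36 Cfsg.Agent.Helper17 Cfsg.Agent.Helper18 Cfsg.Agent.Helper38

section

variable {F : Type*} [Field F] {η : ℕ → ℕ → ℤ}

theorem e6i_fus_71_60 [CharP F 2] (R : BRel chevE6 F η) :
    E6Fus R [71, 60] [68, 66] :=
  e6i_fus R [42, 29, 42, 39, 32, 39, 46, 25, 46] [71, 60] [68, 66] (by decide +kernel)

theorem e6i_fus_71_60_44 [CharP F 2] (R : BRel chevE6 F η) :
    E6Fus R [71, 60, 44] [55, 65, 67] :=
  e6i_fus R [56, 15, 56, 42, 29, 42, 39, 32, 39, 46, 25, 46, 56, 15, 56] [71, 60, 44] [55, 65, 67] (by decide +kernel)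

theorem e6i_fus_71_60_44_39 [CharP F 2] (R : BRel chevE6 F η) :
    E6Fus R [71, 60, 44, 39] [55, 65, 67] :=
  e6i_fus R [56, 15, 56, 42, 29, 42, 39, 32, 39, 46, 25, 46, 56, 15, 56, 47, 25, 20, 8] [71, 60, 44, 39] [55, 65, 67] (by decide +kernel)

/-- Every nontrivial standard word is conjugate to one of the representatives. -/
theorem e6i_fusion [CharP F 2] (R : BRel chevE6 F η) : ∀ l ∈ e6iL012345, l ≠ [] →
    ∃ y ∈ [[71], [68, 66], [55, 65, 67]], E6Fus R l y := by
  intro l hl hne
  unfold e6iL012345 at hl
  simp only [List.mem_cons, List.not_mem_nil, or_false] at hl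
  rcases hl with rfl | rfl | rfl | rfl | rfl
  · exact absurd rfl hne
  · exact ⟨[71], by decide, e6i_fus_refl R _⟩
  · exact ⟨[68, 66], by decide, e6i_fus_71_60 R⟩
  · exact ⟨[55, 65, 67], by decide, e6i_fus_71_60_44 R⟩
  · exact ⟨[55, 65, 67], by decide, e6i_fus_71_60_44_39 R⟩

end

end Cfsg.Agent.Helper18.E6I
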