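/-
helper18 (after helper38's `F4IMain`): S2175 (`E₆(q)`, `q` even, three classes of involutions) - the
assembly, from the lowering and cocycle lemmas, the Sylow step and the non-conjugacy, taken as hypotheses.
-/
import Cfsg.Agent.Helper18.E6IFus

set_option autoImplicit false
set_option linter.unusedSectionVars false
set_option linter.unusedVariables false
set_option maxRecDepth 100000

namespace Cfsg.Agent.Helper18.E6I

open Cfsg Cfsg.Lie Cfsg.Agent.Helper36 Cfsg.Agent.Helper17 Cfsg.Agent.Helper18 Cfsg.Agent.Helper38 Cfsg.Agent.Helper18.RSub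

section E6IMain

variable {F : Type*} [Field F] {η : ℕ → ℕ → ℤ}

/-- The three representatives. -/
def E6IRep (R : BRel chevE6 F η) (y : GL chevE6.Idx F) : Prop :=
  y = xGL R.xadd 71 1 ∨ y = xGL R.xadd 68 1 * xGL R.xadd 66 1 ∨
    y = xGL R.xadd 55 1 * xGL R.xadd 65 1 * xGL R.xadd 67 1

theorem e6i_rep_of_mem (R : BRel chevE6 F η) {y : GL chevE6.Idx F}
    (hy : ((y : GL chevE6.Idx F) : Matrix chevE6.Idx chevE6.Idx F) ∈
      [chevE6.x F 71 1, chevE6.x F 68 1 * chevE6.x F 66 1,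
        chevE6.x F 55 1 * chevE6.x F 65 1 * chevE6.x F 67 1]) : E6IRep R y := by
  simp only [List.mem_cons, List.not_mem_nil, or_false] at hy
  rcases hy with hy | hy | hy
  · exact Or.inl (eq_xGL R.xadd hy)
  · exact Or.inr (Or.inl (Units.ext (by rw [hy]; rfl)))
  · exact Or.inr (Or.inr (Units.ext (by rw [hy]; rfl)))

theorem e6i_mem_of_rep (R : BRel chevE6 F η) {y : GL chevE6.Idx F} (hy : E6IRep R y) :
    y ∈ chevE6.group F ∧ ((y : GL chevE6.Idx F) : Matrix chevE6.Idx chevE6.Idx F) ∈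
      [chevE6.x F 71 1, chevE6.x F 68 1 * chevE6.x F 66 1,
        chevE6.x F 55 1 * chevE6.x F 65 1 * chevE6.x F 67 1] := by
  rcases hy with rfl | rfl | rfl
  · exact ⟨xGL_mem_group R.xadd 71 1, by simp⟩
  · exact ⟨mul_mem (xGL_mem_group R.xadd 68 1) (xGL_mem_group R.xadd 66 1), by simp⟩
  · exact ⟨mul_mem (mul_mem (xGL_mem_group R.xadd 55 1) (xGL_mem_group R.xadd 65 1))
      (xGL_mem_group R.xadd 67 1), by simp⟩

theorem e6i_rep_of_word (R : BRel chevE6 F η) {y : List ℕ}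
    (hy : y ∈ [[71], [68, 66], [55, 65, 67]]) :
    E6IRep R (wordGL R.xadd (y.map fun r => (r, (1 : F)))) := by
  simp only [List.mem_cons, List.not_mem_nil, or_false] at hy
  rcases hy with rfl | rfl | rfl
  · exact Or.inl (by simp [wordGL_cons, wordGL_nil])
  · exact Or.inr (Or.inl (by simp [wordGL_cons, wordGL_nil]))
  · exact Or.inr (Or.inr (by simp [wordGL_cons, wordGL_nil, mul_assoc]))

theorem e6i_posRoots : chevE6.posRoots = e6iP012345 := by decide +kernel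

/-- Every involution of the group is conjugate to one of the three representatives. -/
theorem e6i_invol [Finite F] [CharP F 2] (R : BRel chevE6 F η) (hL : E6LowS R) (hC : E6CocS R)
    (hsyl : ∀ g ∈ chevE6.group F, g * g = 1 →
      ∃ x ∈ chevE6.group F, x⁻¹ * g * x ∈ chevE6.posUnipotent F)
    {g : GL chevE6.Idx F} (hg : g ∈ chevE6.group F) (hord : orderOf g = 2) :
    ∃ h ∈ chevE6.group F, E6IRep R (h * g * h⁻¹) := by
  have hsq : g * g = 1 := by rw [← pow_two, ← hord, pow_orderOf_eq_one]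
  have hne : g ≠ 1 := by
    rintro rfl
    rw [orderOf_one] at hord
    omega
  obtain ⟨x, hx, hxU⟩ := hsyl g hg hsq
  rw [posUnipotent_eq, e6i_posRoots] at hxU
  have hu2 : (x⁻¹ * g * x) * (x⁻¹ * g * x) = 1 := by
    have e : (x⁻¹ * g * x) * (x⁻¹ * g * x) = x⁻¹ * (g * g) * x := by group
    rw [e, hsq]; group
  obtain ⟨g1, hg1, l, hl, e1⟩ := e6i_claim_012345 R hL hC (x⁻¹ * g * x) hxU hu2
  have hlne : l ≠ [] := by
    rintro rfl
    apply hne
    rw [List.map_nil, wordGL_nil] at e1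
    have e2 : x⁻¹ * g * x = 1 := by
      have : x⁻¹ * g * x = g1⁻¹ * (g1 * (x⁻¹ * g * x) * g1⁻¹) * g1 := by group
      rw [this, e1]; group
    have : g = x * (x⁻¹ * g * x) * x⁻¹ := by group
    rw [this, e2]; group
  obtain ⟨y, hy, g2, hg2, e2⟩ := e6i_fusion R l hl hlne
  refine ⟨g2 * g1 * x⁻¹, mul_mem (mul_mem hg2 (e6i_G_le_group R _ hg1)) (inv_mem hx), ?_⟩
  have e3 : g2 * g1 * x⁻¹ * g * (g2 * g1 * x⁻¹)⁻¹ = g2 * (g1 * (x⁻¹ * g * x) * g1⁻¹) * g2⁻¹ := by group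
  rw [e3, e1, e2]
  exact e6i_rep_of_word R hy

/-- The three representatives are pairwise non-conjugate. -/
theorem e6i_distinct [CharP F 2] (R : BRel chevE6 F η)
    (hnc : ∀ h ∈ chevE6.group F,
      h * (xGL R.xadd 68 (1 : F) * xGL R.xadd 66 1) * h⁻¹ ≠ xGL R.xadd 71 1 ∧
      h * (xGL R.xadd 55 (1 : F) * xGL R.xadd 65 1 * xGL R.xadd 67 1) * h⁻¹ ≠ xGL R.xadd 71 1 ∧
      h * (xGL R.xadd 55 (1 : F) * xGL R.xadd 65 1 * xGL R.xadd 67 1) * h⁻¹ ≠
        xGL R.xadd 68 1 * xGL R.xadd 66 1)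
    {y₁ y₂ : GL chevE6.Idx F} (h₁ : E6IRep R y₁) (h₂ : E6IRep R y₂)
    (hc : ∃ h ∈ chevE6.group F, h * y₁ * h⁻¹ = y₂) : y₁ = y₂ := by
  obtain ⟨h, hh, hconj⟩ := hc
  have hinv : h⁻¹ * y₂ * h⁻¹⁻¹ = y₁ := by rw [← hconj]; group
  rcases h₁ with rfl | rfl | rfl <;> rcases h₂ with rfl | rfl | rfl
  · rfl
  · exact absurd hinv (hnc h⁻¹ (inv_mem hh)).1
  · exact absurd hinv (hnc h⁻¹ (inv_mem hh)).2.1
  · exact absurd hconj (hnc h hh).1
  · rfl
  · exact absurd hinv (hnc h⁻¹ (inv_mem hh)).2.2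
  · exact absurd hconj (hnc h hh).2.1
  · exact absurd hconj (hnc h hh).2.2
  · rfl

end E6IMain

end Cfsg.Agent.Helper18.E6I
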