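import Mathlib
import Cfsg.Agent.Helper95.G2SylDefs

/-! helper18: CALL S4632 pieces HATM, R1 -/

set_option autoImplicit false

namespace Cfsg.Agent.Helper18.G2SylP

open Matrix Cfsg.Agent.Helper95.G2Syl

variable {F : Type*} [Field F]

theorem g2_gl2_det_ne (h : GL (Fin 2) F) :
    (h : Matrix (Fin 2) (Fin 2) F) 0 0 * (h : Matrix (Fin 2) (Fin 2) F) 1 1 -
      (h : Matrix (Fin 2) (Fin 2) F) 0 1 * (h : Matrix (Fin 2) (Fin 2) F) 1 0 ≠ 0 := by
  have h1 : IsUnit (h : Matrix (Fin 2) (Fin 2) F).det :=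
    (Matrix.isUnit_iff_isUnit_det _).1 h.isUnit
  rw [Matrix.det_fin_two] at h1
  exact h1.ne_zero

theorem g2_gl2_det_val (h : GL (Fin 2) F) :
    ((Matrix.GeneralLinearGroup.det h : Fˣ) : F) =
      (h : Matrix (Fin 2) (Fin 2) F) 0 0 * (h : Matrix (Fin 2) (Fin 2) F) 1 1 -
      (h : Matrix (Fin 2) (Fin 2) F) 0 1 * (h : Matrix (Fin 2) (Fin 2) F) 1 0 := by
  rw [Matrix.GeneralLinearGroup.val_det_apply, Matrix.det_fin_two]

set_option maxHeartbeats 1600000 in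
theorem g2_hat_mem (h : GL (Fin 2) F) : hat F h ∈ Cfsg.Lie.G2 F := by
  rw [mem_G2_iff]
  intro x y
  have hd := g2_gl2_det_ne h
  rw [hat_coe, m3_mulVec, m3_mulVec, m3_mulVec, zornMul_apply, zornMul_apply]
  generalize (h : Matrix (Fin 2) (Fin 2) F) = M at hd
  obtain ⟨d, hdd⟩ : ∃ d : F, d = M 0 0 * M 1 1 - M 0 1 * M 1 0 := ⟨_, rfl⟩
  rw [← hdd] at hd
  ext i
  fin_cases i <;> simp only [hA, hB, ← hdd] <;> simp <;> (try field_simp) <;>
    (subst hdd; ring)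

set_option maxHeartbeats 1600000 in
theorem g2_rel1_aux (h : GL (Fin 2) F) (c : Matrix.SpecialLinearGroup (Fin 2) F) :
    hat F h * phi2 F c = phi2 F (tw (Matrix.GeneralLinearGroup.det h) c) * hat F h := by
  apply Units.ext
  rw [Units.val_mul, Units.val_mul]
  refine Matrix.ext_iff_mulVec.2 (fun v => ?_)
  have hd := g2_gl2_det_ne h
  have hdv := g2_gl2_det_val h
  have hdi : (((Matrix.GeneralLinearGroup.det h)⁻¹ : Fˣ) : F) =
      ((h : Matrix (Fin 2) (Fin 2) F) 0 0 * (h : Matrix (Fin 2) (Fin 2) F) 1 1 -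
      (h : Matrix (Fin 2) (Fin 2) F) 0 1 * (h : Matrix (Fin 2) (Fin 2) F) 1 0)⁻¹ := by
    rw [Units.val_inv_eq_inv_val, hdv]
  have hdet : (c : Matrix (Fin 2) (Fin 2) F).det = 1 := c.2
  rw [Matrix.det_fin_two] at hdet
  rw [← Matrix.mulVec_mulVec, ← Matrix.mulVec_mulVec, hat_coe, phi2_coe, phi2_coe, mphi_mulVec,
    m3_mulVec, m3_mulVec, mphi_mulVec, tw_coe, hdv, hdi]
  generalize (h : Matrix (Fin 2) (Fin 2) F) = M at hd
  generalize (c : Matrix (Fin 2) (Fin 2) F) 0 0 = p at hdet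
  generalize (c : Matrix (Fin 2) (Fin 2) F) 0 1 = q at hdet
  generalize (c : Matrix (Fin 2) (Fin 2) F) 1 0 = r at hdet
  generalize (c : Matrix (Fin 2) (Fin 2) F) 1 1 = s at hdet
  obtain ⟨d, hdd⟩ : ∃ d : F, d = M 0 0 * M 1 1 - M 0 1 * M 1 0 := ⟨_, rfl⟩
  rw [← hdd] at hd
  ext i
  fin_cases i <;> simp only [hA, hB, ← hdd] <;> simp <;> (try field_simp) <;>
    (subst hdd; ring)

theorem g2_rel1 (h : GL (Fin 2) F) (c : Matrix.SpecialLinearGroup (Fin 2) F) :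
    hat F h * phi2 F c * (hat F h)⁻¹ = phi2 F (tw (Matrix.GeneralLinearGroup.det h) c) := by
  rw [mul_inv_eq_iff_eq_mul]
  exact g2_rel1_aux h c

end Cfsg.Agent.Helper18.G2SylP
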