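import Mathlib
import Cfsg.Agent.Helper95.G2SylDefs

/-! helper18: CALL S4632 piece PHI2M -/

set_option autoImplicit false

namespace Cfsg.Agent.Helper18.G2SylP

open Matrix Cfsg.Agent.Helper95.G2Syl

variable {F : Type*} [Field F]

set_option maxHeartbeats 1600000 in
theorem g2_phi2_mem (c : Matrix.SpecialLinearGroup (Fin 2) F) : phi2 F c ∈ Cfsg.Lie.G2 F := by
  rw [mem_G2_iff]
  intro x y
  have hdet : (c : Matrix (Fin 2) (Fin 2) F).det = 1 := c.2
  rw [Matrix.det_fin_two] at hdet
  rw [phi2_coe, mphi_mulVec, mphi_mulVec, mphi_mulVec, zornMul_apply, zornMul_apply]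
  generalize (c : Matrix (Fin 2) (Fin 2) F) 0 0 = p at hdet
  generalize (c : Matrix (Fin 2) (Fin 2) F) 0 1 = q at hdet
  generalize (c : Matrix (Fin 2) (Fin 2) F) 1 0 = r at hdet
  generalize (c : Matrix (Fin 2) (Fin 2) F) 1 1 = s at hdet
  have hps : p * s = 1 + q * r := by linear_combination hdet
  ext i
  fin_cases i
  · simp
    grind
  · simp
    grind
  · simp
    grind
  · simp
    grind
  · simp
    grind
  · simp
    grind
  · simp
    grind
  · simp
    grind

end Cfsg.Agent.Helper18.G2SylP
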