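import Mathlib
import Cfsg.Agent.Helper95.G2SylDefs

/-! helper18: CALL S4632 piece PHI3M -/

set_option autoImplicit false

namespace Cfsg.Agent.Helper18.G2SylP

open Matrix Cfsg.Agent.Helper95.G2Syl

variable {F : Type*} [Field F]

set_option maxHeartbeats 1600000 in
theorem g2_phi3_mem (A : Matrix.SpecialLinearGroup (Fin 3) F) : phi3 F A ∈ Cfsg.Lie.G2 F := by
  rw [mem_G2_iff]
  intro x y
  have hdet : (A : Matrix (Fin 3) (Fin 3) F).det = 1 := A.2
  rw [Matrix.det_fin_three] at hdet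
  rw [phi3_coe, m3_mulVec, m3_mulVec, m3_mulVec, zornMul_apply, zornMul_apply,
    Matrix.SpecialLinearGroup.coe_inv, Matrix.adjugate_fin_three]
  generalize (A : Matrix (Fin 3) (Fin 3) F) = M at hdet
  ext i
  fin_cases i
  · simp
    linear_combination (-(x 1 * y 4 + x 2 * y 5 + x 3 * y 6)) * hdet
  · simp
    linear_combination (M 0 0 * (x 5 * y 6 - x 6 * y 5) + M 0 1 * (x 6 * y 4 - x 4 * y 6) + M 0 2 * (x 4 * y 5 - x 5 * y 4)) * hdet
  · simp
    linear_combination (M 1 0 * (x 5 * y 6 - x 6 * y 5) + M 1 1 * (x 6 * y 4 - x 4 * y 6) + M 1 2 * (x 4 * y 5 - x 5 * y 4)) * hdet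
  · simp
    linear_combination (M 2 0 * (x 5 * y 6 - x 6 * y 5) + M 2 1 * (x 6 * y 4 - x 4 * y 6) + M 2 2 * (x 4 * y 5 - x 5 * y 4)) * hdet
  · simp
    ring
  · simp
    ring
  · simp
    ring
  · simp
    linear_combination (-(x 4 * y 1 + x 5 * y 2 + x 6 * y 3)) * hdet

end Cfsg.Agent.Helper18.G2SylP
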