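import Mathlib
import Cfsg.Agent.Helper95.G2SylDefs

/-! helper18: CALL S4632 piece STAB (the stabiliser of `e0` in `G2 F` is `phi3 (SL_3)`) -/

set_option autoImplicit false

namespace Cfsg.Agent.Helper18.G2SylP

open Matrix Cfsg.Agent.Helper95.G2Syl

variable {F : Type*} [Field F]

theorem g2_bv_0_1 : Cfsg.Lie.zornMul (Pi.single 0 1 : Fin 8 → F) (Pi.single 1 1) = (Pi.single 1 1 : Fin 8 → F) := by
  rw [zornMul_apply]; ext i; fin_cases i <;> simp

theorem g2_bv_0_2 : Cfsg.Lie.zornMul (Pi.single 0 1 : Fin 8 → F) (Pi.single 2 1) = (Pi.single 2 1 : Fin 8 → F) := by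
  rw [zornMul_apply]; ext i; fin_cases i <;> simp

theorem g2_bv_0_3 : Cfsg.Lie.zornMul (Pi.single 0 1 : Fin 8 → F) (Pi.single 3 1) = (Pi.single 3 1 : Fin 8 → F) := by
  rw [zornMul_apply]; ext i; fin_cases i <;> simp

theorem g2_bv_0_4 : Cfsg.Lie.zornMul (Pi.single 0 1 : Fin 8 → F) (Pi.single 4 1) = (0 : Fin 8 → F) := by
  rw [zornMul_apply]; ext i; fin_cases i <;> simp

theorem g2_bv_0_5 : Cfsg.Lie.zornMul (Pi.single 0 1 : Fin 8 → F) (Pi.single 5 1) = (0 : Fin 8 → F) := by
  rw [zornMul_apply]; ext i; fin_cases i <;> simp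

theorem g2_bv_0_6 : Cfsg.Lie.zornMul (Pi.single 0 1 : Fin 8 → F) (Pi.single 6 1) = (0 : Fin 8 → F) := by
  rw [zornMul_apply]; ext i; fin_cases i <;> simp

theorem g2_bv_1_0 : Cfsg.Lie.zornMul (Pi.single 1 1 : Fin 8 → F) (Pi.single 0 1) = (0 : Fin 8 → F) := by
  rw [zornMul_apply]; ext i; fin_cases i <;> simp

theorem g2_bv_2_0 : Cfsg.Lie.zornMul (Pi.single 2 1 : Fin 8 → F) (Pi.single 0 1) = (0 : Fin 8 → F) := by
  rw [zornMul_apply]; ext i; fin_cases i <;> simp

theorem g2_bv_3_0 : Cfsg.Lie.zornMul (Pi.single 3 1 : Fin 8 → F) (Pi.single 0 1) = (0 : Fin 8 → F) := by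
  rw [zornMul_apply]; ext i; fin_cases i <;> simp

theorem g2_bv_4_0 : Cfsg.Lie.zornMul (Pi.single 4 1 : Fin 8 → F) (Pi.single 0 1) = (Pi.single 4 1 : Fin 8 → F) := by
  rw [zornMul_apply]; ext i; fin_cases i <;> simp

theorem g2_bv_5_0 : Cfsg.Lie.zornMul (Pi.single 5 1 : Fin 8 → F) (Pi.single 0 1) = (Pi.single 5 1 : Fin 8 → F) := by
  rw [zornMul_apply]; ext i; fin_cases i <;> simp

theorem g2_bv_6_0 : Cfsg.Lie.zornMul (Pi.single 6 1 : Fin 8 → F) (Pi.single 0 1) = (Pi.single 6 1 : Fin 8 → F) := by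
  rw [zornMul_apply]; ext i; fin_cases i <;> simp

theorem g2_bv_1_4 : Cfsg.Lie.zornMul (Pi.single 1 1 : Fin 8 → F) (Pi.single 4 1) = (Pi.single 0 1 : Fin 8 → F) := by
  rw [zornMul_apply]; ext i; fin_cases i <;> simp

theorem g2_bv_1_5 : Cfsg.Lie.zornMul (Pi.single 1 1 : Fin 8 → F) (Pi.single 5 1) = (0 : Fin 8 → F) := by
  rw [zornMul_apply]; ext i; fin_cases i <;> simp

theorem g2_bv_1_6 : Cfsg.Lie.zornMul (Pi.single 1 1 : Fin 8 → F) (Pi.single 6 1) = (0 : Fin 8 → F) := by
  rw [zornMul_apply]; ext i; fin_cases i <;> simp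

theorem g2_bv_2_4 : Cfsg.Lie.zornMul (Pi.single 2 1 : Fin 8 → F) (Pi.single 4 1) = (0 : Fin 8 → F) := by
  rw [zornMul_apply]; ext i; fin_cases i <;> simp

theorem g2_bv_2_5 : Cfsg.Lie.zornMul (Pi.single 2 1 : Fin 8 → F) (Pi.single 5 1) = (Pi.single 0 1 : Fin 8 → F) := by
  rw [zornMul_apply]; ext i; fin_cases i <;> simp

theorem g2_bv_2_6 : Cfsg.Lie.zornMul (Pi.single 2 1 : Fin 8 → F) (Pi.single 6 1) = (0 : Fin 8 → F) := by
  rw [zornMul_apply]; ext i; fin_cases i <;> simp

theorem g2_bv_3_4 : Cfsg.Lie.zornMul (Pi.single 3 1 : Fin 8 → F) (Pi.single 4 1) = (0 : Fin 8 → F) := by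
  rw [zornMul_apply]; ext i; fin_cases i <;> simp

theorem g2_bv_3_5 : Cfsg.Lie.zornMul (Pi.single 3 1 : Fin 8 → F) (Pi.single 5 1) = (0 : Fin 8 → F) := by
  rw [zornMul_apply]; ext i; fin_cases i <;> simp

theorem g2_bv_3_6 : Cfsg.Lie.zornMul (Pi.single 3 1 : Fin 8 → F) (Pi.single 6 1) = (Pi.single 0 1 : Fin 8 → F) := by
  rw [zornMul_apply]; ext i; fin_cases i <;> simp

theorem g2_bv_1_2 : Cfsg.Lie.zornMul (Pi.single 1 1 : Fin 8 → F) (Pi.single 2 1) = (Pi.single 6 1 : Fin 8 → F) := by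
  rw [zornMul_apply]; ext i; fin_cases i <;> simp

theorem g2_one8_mul (y : Fin 8 → F) : Cfsg.Lie.zornMul (one8 F) y = y := by
  rw [zornMul_apply]; ext i; fin_cases i <;> simp [one8]

theorem g2_mul_one8 (y : Fin 8 → F) : Cfsg.Lie.zornMul y (one8 F) = y := by
  rw [zornMul_apply]; ext i; fin_cases i <;> simp [one8]

theorem g2_e0_single : e0 F = Pi.single 0 1 := by
  ext i; fin_cases i <;> simp [e0]

theorem g2_map_one8 (g : GL (Fin 8) F) (hg : g ∈ Cfsg.Lie.G2 F) :
    (g : Matrix (Fin 8) (Fin 8) F) *ᵥ one8 F = one8 F := by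
  rw [mem_G2_iff] at hg
  have hinv : ∀ z : Fin 8 → F, (g : Matrix (Fin 8) (Fin 8) F) *ᵥ
      (((g⁻¹ : GL (Fin 8) F) : Matrix (Fin 8) (Fin 8) F) *ᵥ z) = z := by
    intro z
    rw [Matrix.mulVec_mulVec, ← Units.val_mul, mul_inv_cancel, Units.val_one, Matrix.one_mulVec]
  have h2 : ∀ z, Cfsg.Lie.zornMul ((g : Matrix (Fin 8) (Fin 8) F) *ᵥ one8 F) z = z := by
    intro z
    have h3 := hg (one8 F) (((g⁻¹ : GL (Fin 8) F) : Matrix (Fin 8) (Fin 8) F) *ᵥ z)
    rw [g2_one8_mul, hinv] at h3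
    exact h3.symm
  have h4 := h2 (one8 F)
  rw [g2_mul_one8] at h4
  exact h4

set_option maxHeartbeats 4000000 in
theorem g2_stab (g : GL (Fin 8) F) (hg : g ∈ Cfsg.Lie.G2 F)
    (he : (g : Matrix (Fin 8) (Fin 8) F) *ᵥ e0 F = e0 F) :
    ∃ A : Matrix.SpecialLinearGroup (Fin 3) F, g = phi3 F A := by
  have hone := g2_map_one8 g hg
  rw [mem_G2_iff] at hg
  obtain ⟨M, hMdef⟩ : ∃ M : Matrix (Fin 8) (Fin 8) F, M = (g : Matrix (Fin 8) (Fin 8) F) := ⟨_, rfl⟩
  rw [← hMdef] at hg he hone
  have hcol : ∀ a : Fin 8, M *ᵥ (Pi.single a 1) = fun i => M i a := by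
    intro a; ext i; simp
  have key : ∀ a b : Fin 8, M *ᵥ Cfsg.Lie.zornMul (Pi.single a 1) (Pi.single b 1) =
      Cfsg.Lie.zornMul (fun i => M i a) (fun i => M i b) := by
    intro a b; rw [hg, hcol, hcol]
  have hc0 : (fun i => M i 0) = e0 F := by
    rw [← hcol, ← g2_e0_single]; exact he

  have f00 : M 0 0 = 1 := by have := congrFun hc0 0; simpa [e0] using this
  have f10 : M 1 0 = 0 := by have := congrFun hc0 1; simpa [e0] using this
  have f20 : M 2 0 = 0 := by have := congrFun hc0 2; simpa [e0] using this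
  have f30 : M 3 0 = 0 := by have := congrFun hc0 3; simpa [e0] using this
  have f40 : M 4 0 = 0 := by have := congrFun hc0 4; simpa [e0] using this
  have f50 : M 5 0 = 0 := by have := congrFun hc0 5; simpa [e0] using this
  have f60 : M 6 0 = 0 := by have := congrFun hc0 6; simpa [e0] using this
  have f70 : M 7 0 = 0 := by have := congrFun hc0 7; simpa [e0] using this
  have hc7 : (fun i => M i 7) = ![0, 0, 0, 0, 0, 0, 0, 1] := by
    have h1 : (Pi.single 7 1 : Fin 8 → F) = one8 F - e0 F := by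
      ext i; fin_cases i <;> simp [e0, one8]
    rw [← hcol, h1, Matrix.mulVec_sub, hone, he]
    ext i; fin_cases i <;> simp [e0, one8]
  have f07 : M 0 7 = 0 := by have := congrFun hc7 0; simpa using this
  have f17 : M 1 7 = 0 := by have := congrFun hc7 1; simpa using this
  have f27 : M 2 7 = 0 := by have := congrFun hc7 2; simpa using this
  have f37 : M 3 7 = 0 := by have := congrFun hc7 3; simpa using this
  have f47 : M 4 7 = 0 := by have := congrFun hc7 4; simpa using this
  have f57 : M 5 7 = 0 := by have := congrFun hc7 5; simpa using this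
  have f67 : M 6 7 = 0 := by have := congrFun hc7 6; simpa using this
  have f77 : M 7 7 = 1 := by have := congrFun hc7 7; simpa using this
  have k01 := key 0 1
  rw [g2_bv_0_1, hcol, hc0, zornMul_apply] at k01
  have k10 := key 1 0
  rw [g2_bv_1_0, Matrix.mulVec_zero, hc0, zornMul_apply] at k10
  have f41 : M 4 1 = 0 := by have := congrFun k01 4; simpa [e0] using this
  have f51 : M 5 1 = 0 := by have := congrFun k01 5; simpa [e0] using this
  have f61 : M 6 1 = 0 := by have := congrFun k01 6; simpa [e0] using this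
  have f71 : M 7 1 = 0 := by have := congrFun k01 7; simpa [e0] using this
  have f01 : M 0 1 = 0 := by have := congrFun k10 0; simpa [e0] using this.symm
  have k02 := key 0 2
  rw [g2_bv_0_2, hcol, hc0, zornMul_apply] at k02
  have k20 := key 2 0
  rw [g2_bv_2_0, Matrix.mulVec_zero, hc0, zornMul_apply] at k20
  have f42 : M 4 2 = 0 := by have := congrFun k02 4; simpa [e0] using this
  have f52 : M 5 2 = 0 := by have := congrFun k02 5; simpa [e0] using this
  have f62 : M 6 2 = 0 := by have := congrFun k02 6; simpa [e0] using this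
  have f72 : M 7 2 = 0 := by have := congrFun k02 7; simpa [e0] using this
  have f02 : M 0 2 = 0 := by have := congrFun k20 0; simpa [e0] using this.symm
  have k03 := key 0 3
  rw [g2_bv_0_3, hcol, hc0, zornMul_apply] at k03
  have k30 := key 3 0
  rw [g2_bv_3_0, Matrix.mulVec_zero, hc0, zornMul_apply] at k30
  have f43 : M 4 3 = 0 := by have := congrFun k03 4; simpa [e0] using this
  have f53 : M 5 3 = 0 := by have := congrFun k03 5; simpa [e0] using this
  have f63 : M 6 3 = 0 := by have := congrFun k03 6; simpa [e0] using this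
  have f73 : M 7 3 = 0 := by have := congrFun k03 7; simpa [e0] using this
  have f03 : M 0 3 = 0 := by have := congrFun k30 0; simpa [e0] using this.symm
  have k40 := key 4 0
  rw [g2_bv_4_0, hcol, hc0, zornMul_apply] at k40
  have k04 := key 0 4
  rw [g2_bv_0_4, Matrix.mulVec_zero, hc0, zornMul_apply] at k04
  have f14 : M 1 4 = 0 := by have := congrFun k40 1; simpa [e0] using this
  have f24 : M 2 4 = 0 := by have := congrFun k40 2; simpa [e0] using this
  have f34 : M 3 4 = 0 := by have := congrFun k40 3; simpa [e0] using this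
  have f74 : M 7 4 = 0 := by have := congrFun k40 7; simpa [e0] using this
  have f04 : M 0 4 = 0 := by have := congrFun k04 0; simpa [e0] using this.symm
  have k50 := key 5 0
  rw [g2_bv_5_0, hcol, hc0, zornMul_apply] at k50
  have k05 := key 0 5
  rw [g2_bv_0_5, Matrix.mulVec_zero, hc0, zornMul_apply] at k05
  have f15 : M 1 5 = 0 := by have := congrFun k50 1; simpa [e0] using this
  have f25 : M 2 5 = 0 := by have := congrFun k50 2; simpa [e0] using this
  have f35 : M 3 5 = 0 := by have := congrFun k50 3; simpa [e0] using this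
  have f75 : M 7 5 = 0 := by have := congrFun k50 7; simpa [e0] using this
  have f05 : M 0 5 = 0 := by have := congrFun k05 0; simpa [e0] using this.symm
  have k60 := key 6 0
  rw [g2_bv_6_0, hcol, hc0, zornMul_apply] at k60
  have k06 := key 0 6
  rw [g2_bv_0_6, Matrix.mulVec_zero, hc0, zornMul_apply] at k06
  have f16 : M 1 6 = 0 := by have := congrFun k60 1; simpa [e0] using this
  have f26 : M 2 6 = 0 := by have := congrFun k60 2; simpa [e0] using this
  have f36 : M 3 6 = 0 := by have := congrFun k60 3; simpa [e0] using this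
  have f76 : M 7 6 = 0 := by have := congrFun k60 7; simpa [e0] using this
  have f06 : M 0 6 = 0 := by have := congrFun k06 0; simpa [e0] using this.symm
  have e14 : M 1 1 * M 4 4 + M 2 1 * M 5 4 + M 3 1 * M 6 4 = 1 := by
    have k := key 1 4
    rw [g2_bv_1_4, hcol, hc0, zornMul_apply] at k
    have := congrFun k 0
    simp [f01, e0] at this
    linear_combination -this
  have e15 : M 1 1 * M 4 5 + M 2 1 * M 5 5 + M 3 1 * M 6 5 = 0 := by
    have k := key 1 5
    rw [g2_bv_1_5, Matrix.mulVec_zero, zornMul_apply] at k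
    have := congrFun k 0
    simp [f01] at this
    linear_combination -this
  have e16 : M 1 1 * M 4 6 + M 2 1 * M 5 6 + M 3 1 * M 6 6 = 0 := by
    have k := key 1 6
    rw [g2_bv_1_6, Matrix.mulVec_zero, zornMul_apply] at k
    have := congrFun k 0
    simp [f01] at this
    linear_combination -this
  have e24 : M 1 2 * M 4 4 + M 2 2 * M 5 4 + M 3 2 * M 6 4 = 0 := by
    have k := key 2 4
    rw [g2_bv_2_4, Matrix.mulVec_zero, zornMul_apply] at k
    have := congrFun k 0
    simp [f02] at this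
    linear_combination -this
  have e25 : M 1 2 * M 4 5 + M 2 2 * M 5 5 + M 3 2 * M 6 5 = 1 := by
    have k := key 2 5
    rw [g2_bv_2_5, hcol, hc0, zornMul_apply] at k
    have := congrFun k 0
    simp [f02, e0] at this
    linear_combination -this
  have e26 : M 1 2 * M 4 6 + M 2 2 * M 5 6 + M 3 2 * M 6 6 = 0 := by
    have k := key 2 6
    rw [g2_bv_2_6, Matrix.mulVec_zero, zornMul_apply] at k
    have := congrFun k 0
    simp [f02] at this
    linear_combination -this
  have e34 : M 1 3 * M 4 4 + M 2 3 * M 5 4 + M 3 3 * M 6 4 = 0 := by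
    have k := key 3 4
    rw [g2_bv_3_4, Matrix.mulVec_zero, zornMul_apply] at k
    have := congrFun k 0
    simp [f03] at this
    linear_combination -this
  have e35 : M 1 3 * M 4 5 + M 2 3 * M 5 5 + M 3 3 * M 6 5 = 0 := by
    have k := key 3 5
    rw [g2_bv_3_5, Matrix.mulVec_zero, zornMul_apply] at k
    have := congrFun k 0
    simp [f03] at this
    linear_combination -this
  have e36 : M 1 3 * M 4 6 + M 2 3 * M 5 6 + M 3 3 * M 6 6 = 1 := by
    have k := key 3 6
    rw [g2_bv_3_6, hcol, hc0, zornMul_apply] at k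
    have := congrFun k 0
    simp [f03, e0] at this
    linear_combination -this
  have k12 := key 1 2
  rw [g2_bv_1_2, hcol, zornMul_apply] at k12
  have c4 : M 4 6 = M 2 1 * M 3 2 - M 3 1 * M 2 2 := by
    have := congrFun k12 4; simpa [f02, f71] using this
  have c5 : M 5 6 = M 3 1 * M 1 2 - M 1 1 * M 3 2 := by
    have := congrFun k12 5; simpa [f02, f71] using this
  have c6 : M 6 6 = M 1 1 * M 2 2 - M 2 1 * M 1 2 := by
    have := congrFun k12 6; simpa [f02, f71] using this
  obtain ⟨A, hA⟩ : ∃ A : Matrix (Fin 3) (Fin 3) F,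
      A = !![M 1 1, M 1 2, M 1 3; M 2 1, M 2 2, M 2 3; M 3 1, M 3 2, M 3 3] := ⟨_, rfl⟩
  obtain ⟨B, hB⟩ : ∃ B : Matrix (Fin 3) (Fin 3) F,
      B = !![M 4 4, M 4 5, M 4 6; M 5 4, M 5 5, M 5 6; M 6 4, M 6 5, M 6 6] := ⟨_, rfl⟩
  have hdetA : A.det = 1 := by
    rw [Matrix.det_fin_three, hA]
    simp
    rw [c4, c5, c6] at e36
    linear_combination e36
  have hAB : Aᵀ * B = 1 := by
    ext i j
    rw [mul3, hA, hB]
    fin_cases i <;> fin_cases j <;> simp
    · exact e14
    · exact e15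
    · exact e16
    · exact e24
    · exact e25
    · exact e26
    · exact e34
    · exact e35
    · exact e36
  have hBadj : B = (Matrix.adjugate A)ᵀ := by
    calc B = (Matrix.adjugate Aᵀ * Aᵀ) * B := by
          rw [Matrix.adjugate_mul, Matrix.det_transpose, hdetA, one_smul, Matrix.one_mul]
      _ = Matrix.adjugate Aᵀ := by rw [Matrix.mul_assoc, hAB, Matrix.mul_one]
      _ = (Matrix.adjugate A)ᵀ := (Matrix.adjugate_transpose A).symm
  have hM3 : M = m3 A B := by
    rw [hA, hB]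
    ext i j
    fin_cases i <;> fin_cases j <;>
      simp [m3, f00, f10, f20, f30, f40, f50, f60, f70, f01, f41, f51, f61, f71, f02, f42, f52, f62, f72, f03, f43, f53, f63, f73, f04, f14, f24, f34, f74, f05, f15, f25, f35, f75, f06, f16, f26, f36, f76, f07, f17, f27, f37, f47, f57, f67, f77]
  refine ⟨⟨A, hdetA⟩, Units.ext ?_⟩
  rw [← hMdef, hM3, hBadj]
  rfl

end Cfsg.Agent.Helper18.G2SylP
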